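import Cfsg.Agent.Cores.Basic
import Cfsg.Agent.PGroup.Basic

/-!
# Helpers for primitive subgroups and primitive pairs
-/

namespace Cfsg.Agent.Primitive

set_option linter.style.haveILetI false

variable {G : Type*} [Group G]

/-- The normalizer of a subgroup normalizes the image of each of its characteristic subgroups. -/
theorem normalizer_le_normalizer_map_char (H : Subgroup G) (K : Subgroup H) [K.Characteristic] :
    Subgroup.normalizer (H : Set G) ≤ Subgroup.normalizer ((K.map H.subtype : Subgroup G) : Set G) := by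
  intro g hg
  have key : ∀ u : G, u ∈ Subgroup.normalizer (H : Set G) → ∀ y ∈ K.map H.subtype,
      u * y * u⁻¹ ∈ K.map H.subtype := by
    rintro u hu _ ⟨z, hz, rfl⟩
    refine ⟨H.normalizerMonoidHom ⟨u, hu⟩ z, ?_, rfl⟩
    exact (Subgroup.characteristic_iff_le_comap.mp inferInstance _) hz
  refine Subgroup.mem_normalizer_iff.mpr fun y => ⟨key g hg y, fun hy => ?_⟩
  have := key g⁻¹ (inv_mem hg) _ hy
  simpa [mul_assoc] using this

theorem le_normalizer_map_char (H : Subgroup G) (K : Subgroup H) [K.Characteristic] :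
    H ≤ Subgroup.normalizer ((K.map H.subtype : Subgroup G) : Set G) :=
  Subgroup.le_normalizer.trans (normalizer_le_normalizer_map_char H K)

theorem conj_mem_of_le_normalizer {H A : Subgroup G} (h : H ≤ Subgroup.normalizer (A : Set G))
    {g a : G} (hg : g ∈ H) (ha : a ∈ A) : g * a * g⁻¹ ∈ A :=
  (Subgroup.mem_normalizer_iff.mp (h hg) a).mp ha

/-- A p-subgroup of `M` normalized by `M` lies in `O_p(M)`. -/
theorem le_map_pCore {p : ℕ} {M A : Subgroup G} (hAM : A ≤ M)
    (hn : M ≤ Subgroup.normalizer (A : Set G)) (hA : IsPGroup p A) :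
    A ≤ (Cfsg.pCore p M).map M.subtype := by
  intro a ha
  refine ⟨⟨a, hAM ha⟩, Cfsg.Agent.Cores.le_pCore (N := A.subgroupOf M)
    ((Subgroup.normal_subgroupOf_iff_le_normalizer hAM).mpr hn)
    (hA.of_equiv (Subgroup.subgroupOfEquivOfLe hAM).symm) ha, rfl⟩

theorem map_pCore_isPGroup {p : ℕ} [Fact p.Prime] [Finite G] (M : Subgroup G) :
    IsPGroup p ↥((Cfsg.pCore p M).map M.subtype) :=
  Cfsg.Agent.Cores.pCore_isPGroup.map _

/-- The p-core of a normalized subgroup of `M` lies in the p-core of `M`. -/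
theorem map_pCore_le_map_pCore {p : ℕ} [Fact p.Prime] [Finite G] {M A : Subgroup G} (hAM : A ≤ M)
    (hn : M ≤ Subgroup.normalizer (A : Set G)) :
    (Cfsg.pCore p A).map A.subtype ≤ (Cfsg.pCore p M).map M.subtype :=
  le_map_pCore ((Subgroup.map_subtype_le _).trans hAM)
    (hn.trans (normalizer_le_normalizer_map_char A _)) (map_pCore_isPGroup A)

/-- If `M` has characteristic `p`, every non-trivial subgroup it normalizes has non-trivial
`O_p`. -/
theorem map_pCore_ne_bot {p : ℕ} [Fact p.Prime] [Finite G] {M A : Subgroup G} (hAM : A ≤ M)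
    (hn : M ≤ Subgroup.normalizer (A : Set G)) (hA : A ≠ ⊥)
    (hchar : Subgroup.centralizer (Cfsg.pCore p M : Set M) ≤ Cfsg.pCore p M) :
    (Cfsg.pCore p A).map A.subtype ≠ ⊥ := by
  intro h
  apply hA
  set A' := A.subgroupOf M with hA'
  haveI : A'.Normal := (Subgroup.normal_subgroupOf_iff_le_normalizer hAM).mpr hn
  have hinf : A' ⊓ Cfsg.pCore p M = ⊥ := by
    rw [eq_bot_iff]
    intro x hx
    have hle : (A' ⊓ Cfsg.pCore p M).map M.subtype ≤ A := by
      rintro _ ⟨y, hy, rfl⟩; exact hy.1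
    have h2 : (A' ⊓ Cfsg.pCore p M).map M.subtype ≤ (Cfsg.pCore p A).map A.subtype := by
      refine le_map_pCore hle ?_ ((Cfsg.Agent.Cores.pCore_isPGroup.to_le inf_le_right).map _)
      intro a ha
      refine Subgroup.mem_normalizer_iff.mpr fun y => ?_
      have hn' : M ≤ Subgroup.normalizer (((A' ⊓ Cfsg.pCore p M).map M.subtype : Subgroup G) : Set G) := by
        haveI : (A' ⊓ Cfsg.pCore p M).Normal := inferInstance
        intro g hg
        refine Subgroup.mem_normalizer_iff.mpr fun z => ?_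
        simp only [Subgroup.mem_map]
        constructor
        · rintro ⟨w, hw, rfl⟩
          exact ⟨⟨g, hg⟩ * w * ⟨g, hg⟩⁻¹, (inferInstance : (A' ⊓ Cfsg.pCore p M).Normal).conj_mem w hw _, rfl⟩
        · rintro ⟨w, hw, hwz⟩
          refine ⟨⟨g, hg⟩⁻¹ * w * ⟨g, hg⟩, by
            simpa using (inferInstance : (A' ⊓ Cfsg.pCore p M).Normal).conj_mem w hw ⟨g, hg⟩⁻¹, ?_⟩
          simp only [map_mul, map_inv, hwz]
          simp [mul_assoc]
      exact Subgroup.mem_normalizer_iff.mp (hn' (hAM ha)) y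
    have := h2 ⟨x, hx, rfl⟩
    rw [h, Subgroup.mem_bot] at this
    exact Subgroup.mem_bot.mpr (Subtype.ext this)
  have hcent : A' ≤ Subgroup.centralizer (Cfsg.pCore p M : Set M) := fun a ha =>
    Subgroup.mem_centralizer_iff.mpr fun q hq => by
      have := Subgroup.commute_of_normal_of_disjoint A' (Cfsg.pCore p M) inferInstance inferInstance
        (disjoint_iff.mpr hinf) a q ha hq
      exact this.eq.symm
  have : A' = ⊥ := by
    rw [← hinf]; exact (inf_eq_left.mpr (hcent.trans hchar)).symm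
  refine eq_bot_iff.mpr fun a ha => ?_
  have hmem : (⟨a, hAM ha⟩ : M) ∈ A' := Subgroup.mem_subgroupOf.mpr ha
  rw [this, Subgroup.mem_bot] at hmem
  exact Subgroup.mem_bot.mpr (congrArg Subtype.val hmem)

end Cfsg.Agent.Primitive
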